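import Cfsg.Agent.H691.T3.Defs
import Cfsg.Agent.H691.SporCore
import Cfsg.Agent.S0165
import Cfsg.Agent.H665.NoPQ
import Cfsg.Agent.Characters.DegreeBounds

/-!
# The sporadic groups in S4855: tools (helper510)

* `dt q`, `ds q` : the elements of `DT q`, and with the halves of the even ones;
* `Kill S L` : not all the degrees of `S` are in the list `L`;
* `kill_dz` (a character of defect zero), `kill_mem` (a degree), `kill_cent` (an element of prime power order with a
  small centralizer), `kill_gcd` (column orthogonality modulo a prime);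
* `main` : the criterion.
-/

set_option autoImplicit false

namespace Cfsg.Agent.H510.T3S

open Cfsg Cfsg.Agent.H691 Cfsg.Agent.H691.T3 Cfsg.Agent.Characters.Core
open scoped ComplexConjugate

universe u v

/-- the elements of `DT q` -/
def dt (q : ℕ) : List ℕ :=
  [1, q ^ 2 + q, q ^ 3, q ^ 3 - 1, (q - 1) ^ 2 * (q + 1), q ^ 2 + q + 1, q * (q ^ 2 + q + 1)] ++
    ((bif Nat.ble 5 q then [(q + 1) * (q ^ 2 + q + 1)] else []) ++
    (bif Nat.beq ((q - 1) % 3) 0 then [(q + 1) * (q ^ 2 + q + 1) / 3, (q - 1) ^ 2 * (q + 1) / 3] else []))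

theorem mem_dt {q d : ℕ} (h : d ∈ DT q) : d ∈ dt q := by
  unfold dt
  simp only [List.mem_append, List.mem_cons, List.not_mem_nil, or_false]
  rcases h with h | h | h | h | h | ⟨_, h | h⟩ | ⟨h5, h⟩ | ⟨h3, h | h⟩
  · left; simp [h]
  · left; simp [h]
  · left; simp [h]
  · left; right; right; right; left; omega
  · left; simp [h]
  · left; simp [h]
  · left; simp [h]
  · right; left
    have h6 : Nat.ble 5 q = true := by rw [Nat.ble_eq]; exact h5
    rw [h6]
    simp [h]
  · right; right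
    have h6 : Nat.beq ((q - 1) % 3) 0 = true := by rw [Nat.beq_eq]; exact Nat.mod_eq_zero_of_dvd h3
    rw [h6]
    simp only [cond_true, List.mem_cons, List.not_mem_nil, or_false]
    left
    rw [← h, Nat.mul_div_cancel_left _ (by norm_num)]
  · right; right
    have h6 : Nat.beq ((q - 1) % 3) 0 = true := by rw [Nat.beq_eq]; exact Nat.mod_eq_zero_of_dvd h3
    rw [h6]
    simp only [cond_true, List.mem_cons, List.not_mem_nil, or_false]
    right
    rw [← h, Nat.mul_div_cancel_left _ (by norm_num)]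

/-- the elements of `DT q` and the halves of the even ones -/
def ds (q : ℕ) : List ℕ := dt q ++ ((dt q).filter fun d => Nat.beq (d % 2) 0).map fun d => d / 2

theorem mem_ds {q d : ℕ} (h : d ∈ DT q ∨ 2 * d ∈ DT q) : d ∈ ds q := by
  unfold ds
  rw [List.mem_append]
  rcases h with h | h
  · exact Or.inl (mem_dt h)
  · right
    rw [List.mem_map]
    exact ⟨2 * d, List.mem_filter.2 ⟨mem_dt h, by rw [Nat.mul_mod_right]; rfl⟩, by omega⟩

/-- not all the degrees of `S` are in the list `L` -/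
def Kill (S : Type u) [Group S] (L : List ℕ) : Prop := ¬ ∀ d ∈ charDegrees S, d ∈ L

theorem Kill.mono {S : Type u} [Group S] {L L' : List ℕ} (h : Kill S L) (hL : ∀ d ∈ L', d ∈ L) : Kill S L' :=
  fun h' => h fun d hd => hL d (h' d hd)

theorem mem_charDegrees_equiv {S : Type u} {K : Type v} [Group S] [Group K] (e : S ≃* K) {d : ℕ}
    (hd : d ∈ charDegrees K) : d ∈ charDegrees S := H681.DegBasic.charDegrees_comp e.toMonoidHom e.surjective hd

theorem Kill.equiv {S : Type u} {K : Type v} [Group S] [Group K] (e : S ≃* K) {L : List ℕ} (h : Kill K L) :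
    Kill S L := fun h' => h fun d hd => h' d (mem_charDegrees_equiv e hd)

/-- a degree not in the list -/
theorem kill_mem {S : Type u} [Group S] {L : List ℕ} {d : ℕ} (hd : d ∈ charDegrees S) (h : L.contains d = false) :
    Kill S L := by
  intro h'
  rw [List.contains_iff_mem.2 (h' d hd)] at h
  exact Bool.noConfusion h

/-- a prime dividing some degree and no member of the list -/
theorem kill_dvd {S : Type u} [Group S] {L : List ℕ} {p : ℕ} (hd : ∃ d ∈ charDegrees S, p ∣ d)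
    (h : (L.all fun d => !(Nat.beq (d % p) 0)) = true) : Kill S L := by
  intro h'
  obtain ⟨d, hd, hp⟩ := hd
  have h1 := List.all_eq_true.1 h d (h' d hd)
  rw [Nat.mod_eq_zero_of_dvd hp] at h1
  exact absurd h1 (by decide)

/-- a character of defect zero -/
theorem kill_dz {S : Type u} [Group S] {L : List ℕ} {p : ℕ} (hp : p.Prime) {ord : ℕ} (hS : Nat.card S = ord)
    (hord : 0 < ord) (hd : p ∣ ord) (h : H665.NoPQ.HasDZ p S)
    (hL : (L.all fun d => !(Nat.beq (d % p) 0)) = true) : Kill S L := by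
  refine kill_dvd ?_ hL
  obtain ⟨χ, hχ⟩ := h
  refine ⟨_, ⟨χ, rfl⟩, Nat.dvd_of_factorization_pos ?_⟩
  rw [hχ, hS]
  have := (hp.dvd_iff_one_le_factorization hord.ne').1 hd
  omega

/-- an element of prime power order with a small centralizer -/
theorem kill_cent {S : Type u} [Group S] [Finite S] {L : List ℕ} {ord l c M : ℕ} (hl : l.Prime)
    (hS : Nat.card S = ord) (h : CB S l c)
    (hL : (L.all fun d => !(Nat.beq (d % l) 0) && Nat.ble d M) = true) (hlt : c * M ^ 2 < ord) : Kill S L := by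
  classical
  intro h'
  have := Cfsg.Agent.Characters.Core.finite_irr (G := S)
  have := Fintype.ofFinite (IrrCharacter S)
  obtain ⟨x, ⟨a, ha⟩, hc⟩ := h
  have := Fact.mk hl
  have hL' := fun d hd => List.all_eq_true.1 hL d (h' d hd)
  have hnd : ∀ χ : IrrCharacter S, ¬ l ∣ charDegree (χ : S → ℂ) := by
    intro χ hd
    have h1 := hL' _ ⟨χ, rfl⟩
    rw [Nat.mod_eq_zero_of_dvd hd] at h1
    exact absurd h1 (by simp)
  have hle : ∀ χ : IrrCharacter S, charDegree (χ : S → ℂ) ≤ M := by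
    intro χ
    have h1 := hL' _ ⟨χ, rfl⟩
    rw [Bool.and_eq_true, Nat.ble_eq] at h1
    exact h1.2
  have h1 := H424.CentBound.card_le_centralizer ha (Finset.univ : Finset (IrrCharacter S)) (fun χ _ => hnd χ)
  have h2 := H686.CharKit.sum_deg_sq (G := S)
  have h3 : ∑ χ : IrrCharacter S, charDegree (χ : S → ℂ) ^ 2 ≤ ∑ _χ : IrrCharacter S, M ^ 2 :=
    Finset.sum_le_sum fun χ _ => Nat.pow_le_pow_left (hle χ) 2
  rw [h2, Finset.sum_const, smul_eq_mul] at h3
  have h4 := Nat.mul_le_mul_right (M ^ 2) (h1.trans hc)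
  omega

/-- `-1` is not divisible by `l ≥ 2` in the ring of algebraic integers -/
theorem not_dvd_neg_one {l : ℕ} (hl : 2 ≤ l) {z : ℂ} (hz : IsIntegral ℤ z) (h : (l : ℂ) * z = -1) : False := by
  have hl0 : (l : ℂ) ≠ 0 := by exact_mod_cast (by omega : l ≠ 0)
  have h1 : IsIntegral ℤ (((1 : ℕ) : ℂ) / (l : ℂ)) := by
    have h2 : ((1 : ℕ) : ℂ) / (l : ℂ) = -z := by
      rw [div_eq_iff hl0, Nat.cast_one]
      linear_combination h
    rw [h2]
    exact hz.neg
  have h2 := Cfsg.Agent.Characters.DegreeBounds.nat_dvd_of_isIntegral_div (by omega) h1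
  have := Nat.le_of_dvd one_pos h2
  omega

/-- **Column orthogonality at an element of order `r`** (`r` exactly divides the order): the degrees prime to `r`,
other than 1, are not all divisible by `l`. -/
theorem kill_gcd {S : Type u} [Group S] [Finite S] (hsimp : IsSimpleGroup S) (hna : ¬ ∀ a b : S, a * b = b * a)
    {L : List ℕ} {ord r l : ℕ} (hr : r.Prime) (hl : 2 ≤ l) (hS : Nat.card S = ord)
    (h1 : Nat.beq (ord % r) 0 = true) (h2 : Nat.beq (ord % (r * r)) 0 = false)
    (hL : (L.all fun d => Nat.beq d 1 || Nat.beq (d % r) 0 || Nat.beq (d % l) 0 || !(Nat.beq (ord % d) 0)) = true) :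
    Kill S L := by
  classical
  intro h'
  have := Fact.mk hr
  have := Cfsg.Agent.Characters.Core.finite_irr (G := S)
  have := Fintype.ofFinite (IrrCharacter S)
  have hrd : r ∣ Nat.card S := by
    rw [hS]
    exact Nat.dvd_of_mod_eq_zero (Nat.eq_of_beq_eq_true h1)
  have hrr : ¬ r ^ (1 + 1) ∣ Nat.card S := by
    rw [hS]
    intro h
    rw [show r ^ (1 + 1) = r * r by ring] at h
    rw [Nat.mod_eq_zero_of_dvd h] at h2
    exact absurd h2 (by decide)
  obtain ⟨x, hx⟩ := exists_prime_orderOf_dvd_card' (G := S) r hrd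
  have hx1 : x ≠ 1 := by
    rintro rfl
    rw [orderOf_one] at hx
    exact hr.one_lt.ne hx
  have horth := H686.CharKit.col_orth x (1 : S)
  rw [if_neg (fun h => hx1 (isConj_one_left.1 h))] at horth
  let ε : IrrCharacter S := ⟨1, isIrr_one⟩
  have hdeg : ∀ χ : IrrCharacter S, (χ : S → ℂ) 1 = (charDegree (χ : S → ℂ) : ℂ) := fun χ =>
    Blocks.Basic.irr_one_eq_charDegree χ.2
  have key : ∀ χ : IrrCharacter S, χ ≠ ε → ∃ z : ℂ, IsIntegral ℤ z ∧
      (χ : S → ℂ) x * conj ((χ : S → ℂ) 1) = (l : ℂ) * z := by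
    intro χ hχ
    have hmem : charDegree (χ : S → ℂ) ∈ charDegrees S := ⟨χ, rfl⟩
    have h3 := List.all_eq_true.1 hL _ (h' _ hmem)
    simp only [Bool.or_eq_true, Bool.not_eq_true'] at h3
    rw [hdeg χ, Complex.conj_natCast]
    rcases h3 with ((h3 | h3) | h3) | h3
    · exfalso
      apply hχ
      have h4 : charDegree (χ : S → ℂ) = 1 := Nat.eq_of_beq_eq_true h3
      exact Subtype.ext (H681.SimpleChar.eq_one_of_degree_one hna χ.2 (by rw [hdeg χ, h4, Nat.cast_one]))
    · have h4 : r ∣ charDegree (χ : S → ℂ) := Nat.dvd_of_mod_eq_zero (Nat.eq_of_beq_eq_true h3)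
      obtain ⟨n, ρ, hρ, hχρ⟩ := χ.2
      have h5 : (χ : S → ℂ) x = 0 := by
        have h6 := S0165.result ρ r 1 hr (by rwa [pow_one]) hrr (by
          rw [pow_one]
          have h7 := hdeg χ
          rw [← hχρ, Representation.char_one] at h7
          rw [← hχρ] at h4
          have h8 : Module.finrank ℂ (Fin n → ℂ) = charDegree ρ.character := by exact_mod_cast h7
          rw [h8]
          exact h4) x (by rw [hx])
        rw [← hχρ]
        exact h6
      exact ⟨0, isIntegral_zero, by rw [h5]; ring⟩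
    · obtain ⟨m, hm⟩ := Nat.dvd_of_mod_eq_zero (Nat.eq_of_beq_eq_true h3)
      have h4 : IsIntegral ℤ ((χ : S → ℂ) x) :=
        Cfsg.Agent.Characters.GaloisBasic.isIntegral_apply (isIrr_isCharacter χ.2) x
      refine ⟨(m : ℂ) * (χ : S → ℂ) x, (isIntegral_algebraMap (R := ℤ) (x := (m : ℤ))).mul h4 |> fun h => by simpa using h, ?_⟩
      rw [hm]
      push_cast
      ring
    · exfalso
      have h4 := H681.DegBasic.dvd_card hmem
      rw [hS] at h4
      rw [Nat.mod_eq_zero_of_dvd h4] at h3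
      exact absurd h3 (by decide)
  choose z hz1 hz2 using key
  have hsum : ∑ χ : IrrCharacter S, (χ : S → ℂ) x * conj ((χ : S → ℂ) 1) =
      1 + (l : ℂ) * ∑ χ : {χ : IrrCharacter S // χ ≠ ε}, z χ.1 χ.2 := by
    rw [← Finset.add_sum_erase _ _ (Finset.mem_univ ε), Finset.mul_sum]
    congr 1
    · simp [ε]
    · rw [← Finset.sum_subtype (Finset.univ.erase ε) (p := fun χ => χ ≠ ε) (by simp)
        (fun χ => (χ : S → ℂ) x * conj ((χ : S → ℂ) 1)) |>.symm]
      exact Finset.sum_congr rfl fun χ _ => hz2 χ.1 χ.2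
  rw [hsum] at horth
  refine not_dvd_neg_one hl (z := ∑ χ : {χ : IrrCharacter S // χ ≠ ε}, z χ.1 χ.2)
    (IsIntegral.sum _ fun χ _ => hz1 χ.1 χ.2) ?_
  linear_combination horth

/-! ### the criterion -/

/-- the candidates for `q` are in the list `qs` -/
def chk (ord : ℕ) (l : List (ℕ × ℕ)) (qs : List ℕ) (k : ℕ) : Bool :=
  l.all fun x => (List.range k).all fun F =>
    Nat.blt (x.1 ^ F) 3 ||
    (!(Nat.beq ((2 * ord) % (x.1 ^ F + 1)) 0 && Nat.beq ((6 * ord) % ((x.1 ^ F) ^ 2 + x.1 ^ F + 1)) 0) ||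
    qs.any fun q => Nat.beq q (x.1 ^ F))

theorem chk_spec {ord : ℕ} {l : List (ℕ × ℕ)} {qs : List ℕ} {k : ℕ} (h : chk ord l qs k = true) {p j : ℕ}
    (hp : (p, j) ∈ l) {F : ℕ} (hF : F < k) (h3 : 3 ≤ p ^ F) (h1 : p ^ F + 1 ∣ 2 * ord)
    (h2 : (p ^ F) ^ 2 + p ^ F + 1 ∣ 6 * ord) : p ^ F ∈ qs := by
  unfold chk at h
  rw [List.all_eq_true] at h
  have h4 := h _ hp
  rw [List.all_eq_true] at h4
  have h5 := h4 F (List.mem_range.2 hF)
  simp only at h5
  rw [Bool.or_eq_true, Bool.or_eq_true] at h5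
  rcases h5 with h5 | h5 | h5
  · rw [Nat.blt_eq] at h5
    omega
  · rw [Nat.mod_eq_zero_of_dvd h1, Nat.mod_eq_zero_of_dvd h2] at h5
    exact absurd h5 (by decide)
  · rw [List.any_eq_true] at h5
    obtain ⟨q, hq, h6⟩ := h5
    rwa [← Nat.eq_of_beq_eq_true h6]

/-- what `types3` gives -/
def Types3 : Prop := ∀ {A : Type u} [Group A] [Finite A] {S : Subgroup A} (_ : AS A S) {p F : ℕ} (_ : p.Prime)
    (_ : F ≠ 0) (_ : 3 ≤ p ^ F) (_ : p ∣ Nat.card S) (_ : charDegrees A ⊆ DT (p ^ F))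
    (_ : S.index ≤ p ^ F),
    p ^ F + 1 ∣ Nat.card A ∧ (p ^ F) ^ 2 + p ^ F + 1 ∣ 3 * Nat.card A

/-- **The criterion.** -/
theorem main (T : Types3.{u}) {A : Type u} [Group A] [Finite A] {S : Subgroup A} (h : AS A S) {p F : ℕ}
    (hp : p.Prime) (hF : F ≠ 0) (h3 : 3 ≤ p ^ F) (hpS : p ∣ Nat.card S) (hD : charDegrees A ⊆ DT (p ^ F))
    (hidx : S.index = 1 ∨ S.index = 2) {ord k : ℕ} {l : List (ℕ × ℕ)} {qs : List ℕ} (hord : Nat.card S = ord)
    (hv : OrdDiv.valid l ord = true) (hk : 2 * ord < 2 ^ k) (hc : chk ord l qs k = true)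
    (hK : ∀ q ∈ qs, Kill S (ds q)) : False := by
  have := h.normal
  obtain ⟨j, hj, -⟩ := OrdDiv.exists_pair hv hp (j := 1) le_rfl (by rw [pow_one, ← hord]; exact hpS)
  have hA : Nat.card A = ord * S.index := by rw [← hord, S.card_mul_index]
  have hA2 : Nat.card A ∣ 2 * ord := by
    rw [hA, mul_comm 2]
    rcases hidx with h1 | h1 <;> rw [h1]
    exact Nat.mul_dvd_mul_left _ (one_dvd _)
  obtain ⟨h1, h2⟩ := T h hp hF h3 hpS hD (by omega)
  have h1' := h1.trans hA2
  have h2' : (p ^ F) ^ 2 + p ^ F + 1 ∣ 6 * ord := by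
    refine h2.trans ?_
    rw [show 6 * ord = 3 * (2 * ord) by ring]
    exact Nat.mul_dvd_mul_left 3 hA2
  have hopos : 0 < ord := OrdDiv.valid_pos hv
  have hFk : F < k := by
    have h4 : 2 ^ F ≤ p ^ F := Nat.pow_le_pow_left hp.two_le F
    have h5 : p ^ F < 2 ^ k := by
      have := Nat.le_of_dvd (by omega) h1'
      omega
    exact (Nat.pow_lt_pow_iff_right (by norm_num)).1 (lt_of_le_of_lt h4 h5)
  refine hK _ (chk_spec hc hj hFk h3 h1' h2') ?_
  rintro d ⟨θ, rfl⟩
  obtain ⟨χ, hχ, hover⟩ := H672.exists_over_subtype S θ.2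
  obtain ⟨h8, h9⟩ := H672.charDegree_dvd_of_over S hχ θ.2 hover
  have hpos : 0 < charDegree (θ : S → ℂ) := H681.DegBasic.pos_of_mem (G := S) ⟨θ, rfl⟩
  obtain ⟨c, hc'⟩ := h8
  rw [hc', Nat.mul_div_cancel_left _ hpos] at h9
  have h10 := hD ⟨⟨χ, hχ⟩, rfl⟩
  have h11 : c = 1 ∨ c = 2 := by
    rcases hidx with h1 | h1
    · rw [h1] at h9
      exact Or.inl (Nat.dvd_one.1 h9)
    · rw [h1] at h9
      exact (Nat.dvd_prime Nat.prime_two).1 h9
  apply mem_ds
  change charDegree χ ∈ DT (p ^ F) at h10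
  rw [hc'] at h10
  rcases h11 with rfl | rfl
  · left
    rwa [mul_one] at h10
  · right
    rwa [mul_comm] at h10

end Cfsg.Agent.H510.T3S
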